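import Cfsg.Agent.H67.M11.Counts

set_option autoImplicit false

/-!
# Commuting graphs (helper67)
-/

namespace Cfsg.Agent.H67.ComGraph

open Subgroup

universe u v

variable {H : Type u} {M : Type v} [Group H] [Group M] [Finite H] [Finite M]

/-- nonidentity elements of a centralizer -/
theorem card_centralizer_eq {G : Type*} [Group G] [Finite G] (x : {g : G // g ≠ 1}) :
    Nat.card (centralizer ({(x : G)} : Set G)) = Nat.card {y : {g : G // g ≠ 1} // (x : G) * y = y * x} + 1 := by
  have e : Option {y : {g : G // g ≠ 1} // (x : G) * y = y * x} ≃ centralizer ({(x : G)} : Set G) := by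
    classical
    refine Equiv.ofBijective (fun o => match o with
      | none => 1
      | some y => ⟨(y.1 : G), mem_centralizer_singleton_iff.mpr y.2.symm⟩) ⟨?_, ?_⟩
    · rintro (_ | a) (_ | b) h
      · rfl
      · exact absurd (congrArg Subtype.val h).symm b.1.2
      · exact absurd (congrArg Subtype.val h) a.1.2
      · have h1 : ((a.1 : G)) = ((b.1 : G)) := congrArg (fun z : centralizer ({(x : G)} : Set G) => (z : G)) h
        exact congrArg some (Subtype.ext (Subtype.ext h1))
    · rintro ⟨y, hy⟩
      by_cases h1 : y = 1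
      · exact ⟨none, Subtype.ext h1.symm⟩
      · exact ⟨some ⟨⟨y, h1⟩, (mem_centralizer_singleton_iff.mp hy).symm⟩, rfl⟩
  rw [← Nat.card_congr e, Finite.card_option]

theorem card_eq (f : {h : H // h ≠ 1} ≃ {g : M // g ≠ 1}) : Nat.card H = Nat.card M := by
  have e : ∀ {G : Type u} [Group G] [Finite G], Nat.card G = Nat.card {g : G // g ≠ 1} + 1 := by
    intro G _ _
    classical
    rw [← Finite.card_option]
    refine Nat.card_congr (Equiv.optionSubtypeNe (1 : G)).symm
  have e' : ∀ {G : Type v} [Group G] [Finite G], Nat.card G = Nat.card {g : G // g ≠ 1} + 1 := by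
    intro G _ _
    classical
    rw [← Finite.card_option]
    refine Nat.card_congr (Equiv.optionSubtypeNe (1 : G)).symm
  rw [e, e', Nat.card_congr f]

variable (f : {h : H // h ≠ 1} ≃ {g : M // g ≠ 1})
  (hf : ∀ x y : {h : H // h ≠ 1}, (x : H) * y = y * x ↔ ((f x) : M) * (f y) = (f y) * (f x))

include hf in
theorem card_centralizer (x : {h : H // h ≠ 1}) :
    Nat.card (centralizer ({(x : H)} : Set H)) = Nat.card (centralizer ({((f x) : M)} : Set M)) := by
  rw [card_centralizer_eq x, card_centralizer_eq (f x)]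
  congr 1
  exact Nat.card_congr (Equiv.subtypeEquiv f (fun y => hf x y))

omit [Finite H] in
theorem orderOf_of_card {x : H} {p : ℕ} (hp : p.Prime) (hx : x ≠ 1) (h : Nat.card (centralizer ({x} : Set H)) = p) :
    orderOf x = p := by
  have h1 : x ∈ centralizer ({x} : Set H) := by rw [mem_centralizer_singleton_iff]
  have h2 := orderOf_dvd_natCard (⟨x, h1⟩ : centralizer ({x} : Set H))
  rw [Subgroup.orderOf_mk, h] at h2
  rcases (Nat.dvd_prime hp).mp h2 with h3 | h3
  · exact absurd (orderOf_eq_one_iff.mp h3) hx
  · exact h3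

include hf in
theorem order_iff {p : ℕ} [hp : Fact p.Prime] (hM : ∀ g : M, orderOf g = p → Nat.card (centralizer ({g} : Set M)) = p)
    (x : {h : H // h ≠ 1}) : orderOf (x : H) = p ↔ orderOf ((f x) : M) = p := by
  constructor
  · intro h
    have h1 : (x : H) ∈ centralizer ({(x : H)} : Set H) := by rw [mem_centralizer_singleton_iff]
    have h2 := orderOf_dvd_natCard (⟨x, h1⟩ : centralizer ({(x : H)} : Set H))
    rw [Subgroup.orderOf_mk, h, card_centralizer f hf x] at h2
    obtain ⟨z, hz⟩ := exists_prime_orderOf_dvd_card' p h2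
    have hz1 : orderOf (z : M) = p := by rw [Subgroup.orderOf_coe, hz]
    have h3 : ((f x) : M) ∈ centralizer ({(z : M)} : Set M) := by
      have := mem_centralizer_singleton_iff.mp z.2
      rw [mem_centralizer_singleton_iff]
      exact this.symm
    have h4 := orderOf_dvd_natCard (⟨_, h3⟩ : centralizer ({(z : M)} : Set M))
    rw [Subgroup.orderOf_mk, hM _ hz1] at h4
    rcases (Nat.dvd_prime hp.out).mp h4 with h5 | h5
    · exact absurd (orderOf_eq_one_iff.mp h5) (f x).2
    · exact h5
  · intro h
    apply orderOf_of_card hp.out x.2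
    rw [card_centralizer f hf x, hM _ h]

include hf in
theorem card_order {p : ℕ} [hp : Fact p.Prime] (hM : ∀ g : M, orderOf g = p → Nat.card (centralizer ({g} : Set M)) = p) :
    Nat.card {g : H // orderOf g = p} = Nat.card {g : M // orderOf g = p} := by
  have e : ∀ {G : Type u} [Group G], {g : G // orderOf g = p} ≃ {g : {g : G // g ≠ 1} // orderOf (g : G) = p} := by
    intro G _
    refine ⟨fun g => ⟨⟨g, ?_⟩, g.2⟩, fun g => ⟨g.1, g.2⟩, fun g => rfl, fun g => rfl⟩
    intro h
    have := g.2
    rw [h, orderOf_one] at this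
    exact hp.out.one_lt.ne this
  have e' : ∀ {G : Type v} [Group G], {g : G // orderOf g = p} ≃ {g : {g : G // g ≠ 1} // orderOf (g : G) = p} := by
    intro G _
    refine ⟨fun g => ⟨⟨g, ?_⟩, g.2⟩, fun g => ⟨g.1, g.2⟩, fun g => rfl, fun g => rfl⟩
    intro h
    have := g.2
    rw [h, orderOf_one] at this
    exact hp.out.one_lt.ne this
  exact Nat.card_congr (e.trans ((Equiv.subtypeEquiv f (fun y => order_iff f hf hM y)).trans e'.symm))

end Cfsg.Agent.H67.ComGraph
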